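import Cfsg.Agent.H47.Uni.Grp

/-!
# S4970, UNI-2: the covers for `k` odd and for `k` even, `q = 1 mod 4` (helper47)
-/

set_option autoImplicit false

universe u

namespace Cfsg.Agent.H47.Uni

open Cfsg Cfsg.Agent.H955.FS Cfsg.Agent.H721.FR Cfsg.Agent.H855.FR Module

variable {F V : Type u} [Field F] [AddCommGroup V] [Module F V]

/-- the data of UNI-1: `V = J_k ⊗ M`, `tens a = 1 ⊗ a`, `hh = (-1)^i` on `N^i M` -/
structure Dt (B : V →ₗ[F] V →ₗ[F] F) (ε : F) (c : V ≃ₗ[F] V) (k : ℕ) (M : Submodule F V)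
    (β : M →ₗ[F] M →ₗ[F] F) (tens : (M ≃ₗ[F] M) →* (V ≃ₗ[F] V)) (hh : V ≃ₗ[F] V) : Prop where
  sym : ∀ x y, β x y = ε * (-1) ^ (k - 1) * β y x
  nd : ∀ x, (∀ y, β x y = 0) → x = 0
  isom : ∀ a, a ∈ Isom β → tens a ∈ Isom B
  sm : ∀ (s : Fˣ) (x : V), tens (LinearEquiv.smulOfUnit s) x = (s : F) • x
  hh2 : hh * hh = 1
  hhB : ∀ x y, B (hh x) (hh y) = (-1) ^ (k - 1) * B x y
  hhc : hh * c * hh⁻¹ = c⁻¹
  hht : ∀ a, tens a * hh = hh * tens a
  ct : ∀ a, tens a * c = c * tens a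

/-- the elements of `P` -/
def InP (k : ℕ) (M : Submodule F V) (β : M →ₗ[F] M →ₗ[F] F) (tens : (M ≃ₗ[F] M) →* (V ≃ₗ[F] V)) (hh : V ≃ₗ[F] V)
    (g : V ≃ₗ[F] V) : Prop :=
  (∃ a ∈ Isom β, g = tens a) ∨ ∃ b : M ≃ₗ[F] M, (∀ x y, β (b x) (b y) = (-1) ^ (k - 1) * β x y) ∧ g = hh * tens b

theorem finite_equiv {W : Type u} [AddCommGroup W] [Module F W] [Finite W] : Finite (W ≃ₗ[F] W) :=
  Finite.of_injective (fun g : W ≃ₗ[F] W => (g : W → W)) DFunLike.coe_injective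

theorem neg_eq_smul {W : Type u} [AddCommGroup W] [Module F W] :
    (LinearEquiv.neg F : W ≃ₗ[F] W) = LinearEquiv.smulOfUnit (-1 : Fˣ) := by
  ext x
  simp [LinearEquiv.smulOfUnit]

theorem smulOfUnit_apply' {W : Type u} [AddCommGroup W] [Module F W] (s : Fˣ) (x : W) :
    (LinearEquiv.smulOfUnit s : W ≃ₗ[F] W) x = (s : F) • x := rfl

theorem smul_mul {W : Type u} [AddCommGroup W] [Module F W] (s : Fˣ) (g : W ≃ₗ[F] W) :
    (LinearEquiv.smulOfUnit s : W ≃ₗ[F] W) * g = g * LinearEquiv.smulOfUnit s := by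
  ext x
  show (s : F) • g x = g ((s : F) • x)
  rw [map_smul]

namespace Dt

variable {B : V →ₗ[F] V →ₗ[F] F} {ε : F} {c : V ≃ₗ[F] V} {k : ℕ} {M : Submodule F V} {β : M →ₗ[F] M →ₗ[F] F}
  {tens : (M ≃ₗ[F] M) →* (V ≃ₗ[F] V)} {hh : V ≃ₗ[F] V}

theorem tens_smul (h : Dt B ε c k M β tens hh) (s : Fˣ) :
    tens (LinearEquiv.smulOfUnit s) = LinearEquiv.smulOfUnit s := by
  ext x
  rw [h.sm]
  rfl

theorem tens_zel (h : Dt B ε c k M β tens hh) (δ : F) : tens (zel M δ) = zel V δ := by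
  unfold zel
  split_ifs
  · exact map_one tens
  · rw [neg_eq_smul, h.tens_smul, neg_eq_smul]

end Dt

theorem zel_mem {W : Type u} [AddCommGroup W] [Module F W] (β : W →ₗ[F] W →ₗ[F] F) (δ : F) : zel W δ ∈ Isom β := by
  unfold zel
  split_ifs
  · exact (Isom β).one_mem
  · intro x y
    simp

theorem zel_comm {W : Type u} [AddCommGroup W] [Module F W] (δ : F) (g : W ≃ₗ[F] W) : g * zel W δ = zel W δ * g := by
  unfold zel
  split_ifs
  · rw [mul_one, one_mul]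
  · ext x
    simp

theorem zel_sq {W : Type u} [AddCommGroup W] [Module F W] (δ : F) : zel W δ * zel W δ = 1 := by
  unfold zel
  split_ifs
  · rw [mul_one]
  · ext x
    simp

/-- general step: `D = ⟨c, t⟩`, `t² = z`, and `Isom β` -/
theorem cov_of [Finite F] [FiniteDimensional F V] {B : V →ₗ[F] V →ₗ[F] F} {ε : F} {c : V ≃ₗ[F] V} {k : ℕ}
    {M : Submodule F V} {β : M →ₗ[F] M →ₗ[F] F} {tens : (M ≃ₗ[F] M) →* (V ≃ₗ[F] V)} {hh : V ≃ₗ[F] V}
    (h : Dt B ε c k M β tens hh) (hc : c ∈ Isom B) (hc1 : c ≠ 1) (ho : Odd (orderOf c)) {δ : F} (hβ : Fm β δ)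
    (hI : Hyp.{u} (finrank F M)) {t z : V ≃ₗ[F] V} (ht : t ∈ Isom B) (htc : t * c * t⁻¹ = c⁻¹) (htz : t * t = z)
    (hz2 : z * z = 1) (htt : ∀ a, tens a * t = t * tens a) (hze : z * zel V δ = zel V ε)
    {P : Subgroup (V ≃ₗ[F] V)} (hP : ∀ g ∈ P, (∃ a ∈ Isom β, g = tens a) ∨ ∃ a ∈ Isom β, g = t * tens a) :
    Cov B ε c P := by
  have hfV : Finite V := Module.finite_of_finite F
  have hfM : Finite M := Module.finite_of_finite F
  have hf1 : Finite (M ≃ₗ[F] M) := finite_equiv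
  obtain ⟨hw, hFS⟩ := hI F M β δ hβ rfl
  obtain ⟨D, hzD, hfD, hcD, htD, hgen, hzc, hFD⟩ := exists_dic ho hc1 htc htz hz2
  have hcomm : ∀ d ∈ D, ∀ a : Isom β, d * (tens.comp (Isom β).subtype) a = (tens.comp (Isom β).subtype) a * d := by
    intro d hd a
    obtain ⟨i, j, l, rfl⟩ := hgen d hd
    show _ * tens a = tens a * _
    have h1 : Commute (tens a) c := h.ct a
    have h2 : Commute (tens a) t := htt a
    have h3 : Commute (tens a) z := by rw [← htz]; exact h2.mul_right h2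
    exact (((h1.zpow_right i).mul_right (h3.zpow_right j)).mul_right (h2.zpow_right l)).eq.symm
  obtain ⟨Y, hDY, hXY, hgY, hFY⟩ := fszs_mul D (tens.comp (Isom β).subtype) hcomm hzD hzc hz2
    (w := ⟨zel M δ, hw⟩) (fun g => Subtype.ext (zel_comm δ (g : M ≃ₗ[F] M))) (Subtype.ext (zel_sq δ)) hFD hFS
  have hzB : z ∈ Isom B := by rw [← htz]; exact (Isom B).mul_mem ht ht
  refine ⟨Y, ?_, hDY hcD, ?_, ?_⟩
  · intro y hy
    obtain ⟨d, hd, a, rfl⟩ := hgY y hy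
    obtain ⟨i, j, l, rfl⟩ := hgen d hd
    exact (Isom B).mul_mem ((Isom B).mul_mem ((Isom B).mul_mem ((Isom B).zpow_mem hc i) ((Isom B).zpow_mem hzB j))
      ((Isom B).zpow_mem ht l)) (h.isom a a.2)
  · intro g hg
    rcases hP g hg with ⟨a, ha, rfl⟩ | ⟨a, ha, rfl⟩
    · exact hXY ⟨⟨a, ha⟩, rfl⟩
    · exact Y.mul_mem (hDY htD) (hXY ⟨⟨a, ha⟩, rfl⟩)
  · have h1 : z * (tens.comp (Isom β).subtype) ⟨zel M δ, hw⟩ = zel V ε := by
      show z * tens (zel M δ) = _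
      rw [h.tens_zel, hze]
    rw [h1] at hFY
    exact hFY

/-- **(a) `k` odd** -/
theorem cov_odd [Finite F] [FiniteDimensional F V] {B : V →ₗ[F] V →ₗ[F] F} {ε : F} (hF : Fm B ε) {c : V ≃ₗ[F] V}
    {k : ℕ} (hk : Odd k) {M : Submodule F V} {β : M →ₗ[F] M →ₗ[F] F} {tens : (M ≃ₗ[F] M) →* (V ≃ₗ[F] V)}
    {hh : V ≃ₗ[F] V} (h : Dt B ε c k M β tens hh) (hc : c ∈ Isom B) (hc1 : c ≠ 1) (ho : Odd (orderOf c))
    (hI : Hyp.{u} (finrank F M)) {P : Subgroup (V ≃ₗ[F] V)} (hP : ∀ g ∈ P, InP k M β tens hh g) : Cov B ε c P := by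
  have hk1 : ((-1 : F)) ^ (k - 1) = 1 := by
    obtain ⟨j, rfl⟩ := hk
    rw [Nat.add_sub_cancel]
    exact Even.neg_one_pow ⟨j, by ring⟩
  refine cov_of h hc hc1 ho (δ := ε) (t := hh) (z := 1) ⟨hF.two, hF.eps, ?_, h.nd⟩ hI ?_ h.hhc h.hh2 (one_mul 1) h.hht
    (one_mul _) ?_
  · intro x y
    rw [h.sym, hk1, mul_one]
  · intro x y
    rw [h.hhB, hk1, one_mul]
  · intro g hg
    rcases hP g hg with ⟨a, ha, rfl⟩ | ⟨b, hb, rfl⟩
    · exact Or.inl ⟨a, ha, rfl⟩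
    · refine Or.inr ⟨b, fun x y => ?_, rfl⟩
      rw [hb, hk1, one_mul]

/-- **(b) `k` even, `q = 1 mod 4`** -/
theorem cov_even [Finite F] [FiniteDimensional F V] {B : V →ₗ[F] V →ₗ[F] F} {ε : F} (hF : Fm B ε) {c : V ≃ₗ[F] V}
    {k : ℕ} (hk : Even k) (hk0 : k ≠ 0) (hq : Nat.card F % 4 = 1) {M : Submodule F V} {β : M →ₗ[F] M →ₗ[F] F}
    {tens : (M ≃ₗ[F] M) →* (V ≃ₗ[F] V)} {hh : V ≃ₗ[F] V} (h : Dt B ε c k M β tens hh) (hc : c ∈ Isom B)
    (hc1 : c ≠ 1) (ho : Odd (orderOf c)) (hI : Hyp.{u} (finrank F M)) {P : Subgroup (V ≃ₗ[F] V)}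
    (hP : ∀ g ∈ P, InP k M β tens hh g) : Cov B ε c P := by
  have hk1 : ((-1 : F)) ^ (k - 1) = -1 := by
    obtain ⟨j, rfl⟩ := hk
    refine Odd.neg_one_pow ⟨j - 1, ?_⟩
    omega
  have h11 : (-1 : F) ≠ 1 := by
    intro h1
    apply hF.two
    have : (2 : F) = 1 - (-1) := by ring
    rw [this, h1, sub_self]
  -- a root of `-1`
  obtain ⟨i, hi⟩ : ∃ i : Fˣ, i * i = -1 := by
    have := Fintype.ofFinite F
    have h1 : IsSquare (-1 : F) := by
      rw [FiniteField.isSquare_neg_one_iff, ← Nat.card_eq_fintype_card]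
      omega
    obtain ⟨r, hr⟩ := h1
    have hr0 : r ≠ 0 := by
      rintro rfl
      rw [mul_zero] at hr
      exact neg_ne_zero.2 one_ne_zero hr
    refine ⟨Units.mk0 r hr0, Units.ext ?_⟩
    rw [Units.val_mul, Units.val_mk0, ← hr]
    simp
  have hiF : (i : F) * i = -1 := by
    have := congrArg Units.val hi
    simpa using this
  set s : V ≃ₗ[F] V := LinearEquiv.smulOfUnit i with hs
  have hss : s * s = LinearEquiv.neg F := by
    ext x
    show (i : F) • (i : F) • x = _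
    rw [smul_smul, hiF]
    simp
  have hsx : ∀ x, s x = (i : F) • x := fun x => rfl
  have hsc : ∀ g : V ≃ₗ[F] V, s * g = g * s := smul_mul i
  -- elements of `P`
  have hP' : ∀ g ∈ P, (∃ a ∈ Isom β, g = tens a) ∨ ∃ a ∈ Isom β, g = (hh * s) * tens a := by
    intro g hg
    rcases hP g hg with ⟨a, ha, rfl⟩ | ⟨b, hb, rfl⟩
    · exact Or.inl ⟨a, ha, rfl⟩
    · refine Or.inr ⟨(LinearEquiv.smulOfUnit i)⁻¹ * b, ?_, ?_⟩
      · have h2 : ∀ x y, β (((LinearEquiv.smulOfUnit i)⁻¹ : M ≃ₗ[F] M) x) (((LinearEquiv.smulOfUnit i)⁻¹ : M ≃ₗ[F] M) y) =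
            - β x y := by
          intro x y
          obtain ⟨x, rfl⟩ := (LinearEquiv.smulOfUnit i : M ≃ₗ[F] M).surjective x
          obtain ⟨y, rfl⟩ := (LinearEquiv.smulOfUnit i : M ≃ₗ[F] M).surjective y
          have h3 : ∀ x : M, ((LinearEquiv.smulOfUnit i)⁻¹ : M ≃ₗ[F] M) ((LinearEquiv.smulOfUnit i : M ≃ₗ[F] M) x) = x :=
            fun x => LinearEquiv.symm_apply_apply _ x
          rw [h3, h3, smulOfUnit_apply', smulOfUnit_apply', map_smul, map_smul, LinearMap.smul_apply, smul_smul, hiF]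
          simp
        intro x y
        show β (((LinearEquiv.smulOfUnit i)⁻¹ : M ≃ₗ[F] M) (b x)) (((LinearEquiv.smulOfUnit i)⁻¹ : M ≃ₗ[F] M) (b y)) = _
        rw [h2, hb, hk1]
        ring
      · rw [map_mul, map_inv, h.tens_smul, mul_assoc, ← hs, mul_inv_cancel_left]
  have ht : hh * s ∈ Isom B := by
    intro x y
    show B (hh (s x)) (hh (s y)) = _
    rw [h.hhB, hk1, hsx, hsx, map_smul, map_smul, LinearMap.smul_apply, smul_smul, hiF]
    simp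
  have htc : hh * s * c * (hh * s)⁻¹ = c⁻¹ := by
    have h1 : hh * s * c * (hh * s)⁻¹ = hh * (s * c * s⁻¹) * hh⁻¹ := by group
    rw [h1, hsc c, mul_inv_cancel_right, h.hhc]
  have htz : hh * s * (hh * s) = LinearEquiv.neg F := by
    calc hh * s * (hh * s) = hh * (s * hh) * s := by group
      _ = hh * (hh * s) * s := by rw [hsc hh]
      _ = (hh * hh) * (s * s) := by group
      _ = _ := by rw [h.hh2, hss, one_mul]
  have hz2 : (LinearEquiv.neg F : V ≃ₗ[F] V) * LinearEquiv.neg F = 1 := by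
    ext x
    simp
  have htt : ∀ a, tens a * (hh * s) = hh * s * tens a := by
    intro a
    rw [← mul_assoc, h.hht, mul_assoc, mul_assoc, ← hsc]
  rcases hF.eps with rfl | ⟨rfl, -⟩
  · refine cov_of h hc hc1 ho (δ := -1) ⟨hF.two, Or.inr ⟨rfl, hq⟩, ?_, h.nd⟩ hI ht htc htz hz2 htt ?_ hP'
    · intro x y
      rw [h.sym, hk1, one_mul]
    · unfold zel
      rw [if_neg h11, if_pos rfl]
      exact hz2
  · refine cov_of h hc hc1 ho (δ := 1) ⟨hF.two, Or.inl rfl, ?_, h.nd⟩ hI ht htc htz hz2 htt ?_ hP'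
    · intro x y
      rw [h.sym, hk1]
      ring
    · unfold zel
      rw [if_neg h11, if_pos rfl, mul_one]

end Cfsg.Agent.H47.Uni
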