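import Cfsg.Agent.H47.Uni.Count

/-!
# S4970, UNI-2 (d): `k` even, `q = 3 mod 4`, `dim M = 2` (helper47)
-/

set_option autoImplicit false

universe u

namespace Cfsg.Agent.H47.Uni

open Cfsg Cfsg.Agent.H955.FS Cfsg.Agent.H721.FR Cfsg.Agent.H855.FR Module

variable {F V : Type u} [Field F] [AddCommGroup V] [Module F V]

theorem neg_mul_eq {W : Type u} [AddCommGroup W] [Module F W] (g : W ≃ₗ[F] W) :
    g * LinearEquiv.neg F = LinearEquiv.neg F * g := by
  ext x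
  simp

theorem neg_sq {W : Type u} [AddCommGroup W] [Module F W] :
    (LinearEquiv.neg F : W ≃ₗ[F] W) * LinearEquiv.neg F = 1 := by
  ext x
  simp

/-- the torus `⟨c⟩ × (centraliser of J in Isom β)` -/
def torus {M : Submodule F V} (c : V ≃ₗ[F] V) (β : M →ₗ[F] M →ₗ[F] F) (tens : (M ≃ₗ[F] M) →* (V ≃ₗ[F] V))
    (hct : ∀ a, tens a * c = c * tens a) (J : M ≃ₗ[F] M) : Subgroup (V ≃ₗ[F] V) where
  carrier := {g | ∃ (i : ℤ) (a : M ≃ₗ[F] M), a ∈ Isom β ∧ a * J = J * a ∧ g = c ^ i * tens a}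
  one_mem' := ⟨0, 1, (Isom β).one_mem, by rw [one_mul, mul_one], by simp⟩
  mul_mem' := by
    rintro _ _ ⟨i, a, ha, haJ, rfl⟩ ⟨j, b, hb, hbJ, rfl⟩
    refine ⟨i + j, a * b, (Isom β).mul_mem ha hb, by rw [mul_assoc, hbJ, ← mul_assoc, haJ, mul_assoc], ?_⟩
    have h1 : tens a * c ^ j = c ^ j * tens a := (Commute.zpow_right (show Commute (tens a) c from hct a) j).eq
    rw [map_mul, zpow_add]
    calc c ^ i * tens a * (c ^ j * tens b) = c ^ i * (tens a * c ^ j) * tens b := by group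
      _ = _ := by rw [h1]; group
  inv_mem' := by
    rintro _ ⟨i, a, ha, haJ, rfl⟩
    refine ⟨-i, a⁻¹, (Isom β).inv_mem ha, ?_, ?_⟩
    · exact (Commute.inv_left (show Commute a J from haJ)).eq
    · have h1 : tens a⁻¹ * c ^ (-i) = c ^ (-i) * tens a⁻¹ :=
        (Commute.zpow_right (show Commute (tens a⁻¹) c from hct _) (-i)).eq
      rw [← h1, mul_inv_rev, map_inv, zpow_neg]

theorem mem_torus {M : Submodule F V} {c : V ≃ₗ[F] V} {β : M →ₗ[F] M →ₗ[F] F} {tens : (M ≃ₗ[F] M) →* (V ≃ₗ[F] V)}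
    {hct : ∀ a, tens a * c = c * tens a} {J : M ≃ₗ[F] M} {g : V ≃ₗ[F] V} :
    g ∈ torus c β tens hct J ↔ ∃ (i : ℤ) (a : M ≃ₗ[F] M), a ∈ Isom β ∧ a * J = J * a ∧ g = c ^ i * tens a := Iff.rfl

/-- **(d)** -/
theorem cov_plane [Finite F] [FiniteDimensional F V] {B : V →ₗ[F] V →ₗ[F] F} {ε : F} (hF : Fm B ε) {c : V ≃ₗ[F] V}
    {k : ℕ} (hk : Even k) (hk0 : k ≠ 0) (hq : Nat.card F % 4 = 3) {M : Submodule F V} (hM : finrank F M = 2)
    {β : M →ₗ[F] M →ₗ[F] F} {tens : (M ≃ₗ[F] M) →* (V ≃ₗ[F] V)} {hh : V ≃ₗ[F] V} (h : Dt B ε c k M β tens hh)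
    (hinj : Function.Injective tens)
    (hmul : ∀ b : M ≃ₗ[F] M, (∀ x y, β (b x) (b y) = - β x y) → ∀ x y, B (tens b x) (tens b y) = - B x y)
    (hc : c ∈ Isom B) (hc1 : c ≠ 1) (ho : Odd (orderOf c)) {P : Subgroup (V ≃ₗ[F] V)} (h2P : IsPGroup 2 P)
    (hP : ∀ g ∈ P, InP k M β tens hh g) : Cov B ε c P := by
  classical
  have hε : ε = 1 := by
    rcases hF.eps with h1 | ⟨-, h1⟩
    · exact h1
    · omega
  subst hε
  have hk1 : ((-1 : F)) ^ (k - 1) = -1 := by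
    obtain ⟨j, rfl⟩ := hk
    refine Odd.neg_one_pow ⟨j - 1, ?_⟩
    omega
  have hns : ¬ IsSquare (-1 : F) := by
    have := Fintype.ofFinite F
    rw [FiniteField.isSquare_neg_one_iff, ← Nat.card_eq_fintype_card, not_not]
    exact hq
  have hpl : Pl β := ⟨hF.two, hns, fun x y => by rw [h.sym, hk1]; ring, h.nd, hM⟩
  have hfV : Finite V := Module.finite_of_finite F
  have hfM : Finite M := Module.finite_of_finite F
  have hf1 : Finite (M ≃ₗ[F] M) := finite_equiv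
  have := Fintype.ofFinite {J : M ≃ₗ[F] M // J * J = LinearEquiv.neg F}
  set z : V ≃ₗ[F] V := LinearEquiv.neg F with hz
  have htz : tens (LinearEquiv.neg F) = z := by rw [neg_eq_smul, h.tens_smul, hz, neg_eq_smul]
  have hhi : hh⁻¹ = hh := inv_eq_of_mul_eq_one_left h.hh2
  have hVne : ∃ v : V, v ≠ 0 := by
    obtain ⟨v, hv⟩ := hpl.exists_ne
    exact ⟨v, fun h => hv (Subtype.ext h)⟩
  have hz1 : z ≠ 1 := by
    intro h1
    obtain ⟨v, hv⟩ := hVne
    have h2 := LinearEquiv.congr_fun h1 v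
    have h3 : - v = v := h2
    have h4 : (2 : F) • v = 0 := by rw [two_smul]; nth_rewrite 1 [← h3]; rw [neg_add_cancel]
    exact hv ((smul_eq_zero.1 h4).resolve_left hF.two)
  -- conjugation on `tens`
  have hconj : ∀ g ∈ P, ∃ a : M ≃ₗ[F] M, (∀ J, g * tens J * g⁻¹ = tens (a * J * a⁻¹)) ∧
      ((a ∈ Isom β ∧ g = tens a) ∨ ((∀ x y, β (a x) (a y) = - β x y) ∧ g = hh * tens a)) := by
    intro g hg
    rcases hP g hg with ⟨a, ha, rfl⟩ | ⟨b, hb, rfl⟩
    · exact ⟨a, fun J => by rw [map_mul, map_mul, map_inv], Or.inl ⟨ha, rfl⟩⟩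
    · refine ⟨b, fun J => ?_, Or.inr ⟨fun x y => by rw [hb, hk1]; ring, rfl⟩⟩
      have h1 : hh * tens b * tens J * (hh * tens b)⁻¹ = hh * tens (b * J * b⁻¹) * hh⁻¹ := by
        rw [map_mul, map_mul, map_inv]; group
      rw [h1, ← h.hht, mul_inv_cancel_right]
  -- the pair
  let X : Finset (V ≃ₗ[F] V) := Finset.univ.image (fun J : {J : M ≃ₗ[F] M // J * J = LinearEquiv.neg F} => tens J.1)
  have hXc : X.card % 4 = 2 := by
    have h1 : X.card = Nat.card {J : M ≃ₗ[F] M // J * J = LinearEquiv.neg F} := by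
      rw [Finset.card_image_of_injective _ (fun J J' hJJ => Subtype.ext (hinj hJJ)), Finset.card_univ,
        Nat.card_eq_fintype_card]
    rw [h1, hpl.card_J]
    obtain ⟨n, hn⟩ : ∃ n, Nat.card F = 4 * n + 3 := ⟨Nat.card F / 4, by omega⟩
    rw [hn, Nat.mul_mod]
    have h2 : (4 * n + 3) % 4 = 3 := by omega
    have h3 : (4 * n + 3 - 1) % 4 = 2 := by omega
    rw [h2, h3]
  have hmem : ∀ {g : V ≃ₗ[F] V}, g ∈ X ↔ ∃ J : M ≃ₗ[F] M, J * J = LinearEquiv.neg F ∧ tens J = g := by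
    intro g
    rw [Finset.mem_image]
    constructor
    · rintro ⟨J, -, rfl⟩
      exact ⟨J.1, J.2, rfl⟩
    · rintro ⟨J, hJ, rfl⟩
      exact ⟨⟨J, hJ⟩, Finset.mem_univ _, rfl⟩
  obtain ⟨JV, hJV, hPJ⟩ := exists_pair (z := z) (fun g => neg_mul_eq g) neg_sq hz1 P h2P X
    (by
      intro g hg
      obtain ⟨J, hJ, rfl⟩ := hmem.1 hg
      refine hmem.2 ⟨LinearEquiv.neg F * J, ?_, by rw [map_mul, htz]⟩
      rw [mul_assoc, ← mul_assoc J, neg_mul_eq J, mul_assoc, ← mul_assoc (LinearEquiv.neg F) (LinearEquiv.neg F),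
        neg_sq, one_mul, hJ])
    (by
      intro g hg x hx
      obtain ⟨J, hJ, rfl⟩ := hmem.1 hx
      obtain ⟨a, ha, -⟩ := hconj g hg
      rw [ha]
      refine hmem.2 ⟨_, ?_, rfl⟩
      have h1 : a * J * a⁻¹ * (a * J * a⁻¹) = a * (J * J) * a⁻¹ := by group
      rw [h1, hJ, neg_mul_eq, mul_inv_cancel_right])
    hXc
  obtain ⟨J, hJ, rfl⟩ := hmem.1 hJV
  -- the elements
  obtain ⟨s₀, t₀, hst₀⟩ := Pl.exists_norm F
  obtain ⟨g₀, hg₀, hg₀J⟩ := Pl.exists_elt hJ (s := s₀) (t := t₀) (by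
    rw [hst₀]; exact neg_ne_zero.2 one_ne_zero)
  obtain ⟨y₀, hy₀2, hy₀J, hy₀β⟩ := hpl.exists_anti hJ
  have hg₀β : ∀ x y, β (g₀ x) (g₀ y) = - β x y := by
    intro x y
    rw [hg₀, hg₀, hpl.mul hJ, hst₀, neg_one_mul]
  have hy₀J' : ∀ x, y₀ (J x) = - J (y₀ x) := hy₀J
  have hyy : ∀ x, y₀ (y₀ x) = x := fun x => LinearEquiv.congr_fun hy₀2 x
  have hy₀i : y₀⁻¹ = y₀ := inv_eq_of_mul_eq_one_left hy₀2
  -- conjugation of the torus by `y₀`
  have hinv : ∀ a : M ≃ₗ[F] M, a ∈ Isom β → a * J = J * a → y₀ * a * y₀⁻¹ = a⁻¹ := by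
    intro a ha haJ
    obtain ⟨s, t, hst, hn⟩ := hpl.form' hJ haJ (δ := 1) (fun x y => by rw [one_mul]; exact ha x y)
    rw [eq_comm, inv_eq_iff_mul_eq_one, hy₀i]
    refine LinearEquiv.ext fun x => ?_
    show a (y₀ (a (y₀ x))) = x
    rw [hst (y₀ x), map_add, map_smul, map_smul, hy₀J, hyy, hst, map_add, map_smul, map_smul, map_neg, Pl.JJ hJ]
    have h1 : s • (s • x + t • -J x) + t • (s • J x + t • - -x) = (s * s + t * t) • x := by module
    rw [h1, hn, one_smul]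
  have hgy : (g₀ * y₀) * (g₀ * y₀) = LinearEquiv.neg F := by
    refine LinearEquiv.ext fun x => ?_
    show g₀ (y₀ (g₀ (y₀ x))) = - x
    rw [hg₀ (y₀ x), map_add, map_smul, map_smul, hy₀J, hyy, hg₀, map_add, map_smul, map_smul, map_neg, Pl.JJ hJ]
    have h1 : s₀ • (s₀ • x + t₀ • -J x) + t₀ • (s₀ • J x + t₀ • - -x) = (s₀ * s₀ + t₀ * t₀) • x := by module
    rw [h1, hst₀, neg_one_smul]
  set A := torus c β tens h.ct J with hA
  have htA : ∀ a : M ≃ₗ[F] M, a ∈ Isom β → a * J = J * a → tens a ∈ A :=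
    fun a ha haJ => ⟨0, a, ha, haJ, by simp⟩
  have hcA : c ∈ A := ⟨1, 1, (Isom β).one_mem, by rw [one_mul, mul_one], by simp⟩
  have hfA : Finite A := by
    have hfc : (Set.range fun k : ℤ => c ^ k).Finite := by
      have h3 : IsOfFinOrder c := by
        rw [← orderOf_pos_iff]
        exact ho.pos
      exact h3.finite_zpowers
    have h5 : (A : Set (V ≃ₗ[F] V)) ⊆ Set.image2 (fun a b => a * b) (Set.range fun k : ℤ => c ^ k)
        (Set.range fun a => tens a) := by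
      rintro _ ⟨i, a, -, -, rfl⟩
      exact ⟨c ^ i, ⟨i, rfl⟩, tens a, ⟨a, rfl⟩, rfl⟩
    exact ((hfc.image2 _ (Set.finite_range _)).subset h5).to_subtype
  have hAc : ∀ a ∈ A, a * c = c * a := by
    rintro _ ⟨i, a, -, -, rfl⟩
    have h1 : Commute (tens a) c := h.ct a
    exact (((Commute.refl c).zpow_left i).mul_left h1).eq
  have hAJ : ∀ a ∈ A, a * tens J = tens J * a := by
    rintro _ ⟨i, a, -, haJ, rfl⟩
    have h1 : Commute c (tens J) := (h.ct J).symm
    have h2 : Commute (tens a) (tens J) := by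
      show tens a * tens J = tens J * tens a
      rw [← map_mul, haJ, map_mul]
    exact ((h1.zpow_left i).mul_left h2).eq
  have hAA : ∀ a ∈ A, ∀ b ∈ A, a * b = b * a := by
    rintro _ ⟨i, a, ha, haJ, rfl⟩ b hb
    have h1 : Commute c b := (hAc b hb).symm
    have h2 : Commute (tens a) b := by
      obtain ⟨j, b', hb', hbJ, rfl⟩ := hb
      have h3 : Commute (tens a) (tens b') := by
        show tens a * tens b' = tens b' * tens a
        rw [← map_mul, hpl.comm hJ haJ hbJ, map_mul]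
      exact ((show Commute (tens a) c from h.ct a).zpow_right j).mul_right h3
    exact ((h1.zpow_left i).mul_left h2).eq
  have hAB : A ≤ Isom B := by
    rintro _ ⟨i, a, ha, -, rfl⟩
    exact (Isom B).mul_mem ((Isom B).zpow_mem hc i) (h.isom a ha)
  -- conjugation by `hh * tens b`
  have hcj : ∀ (b : M ≃ₗ[F] M) (i : ℤ) (a : M ≃ₗ[F] M), (hh * tens b) * (c ^ i * tens a) * (hh * tens b)⁻¹ =
      c ^ (-i) * tens (b * a * b⁻¹) := by
    intro b i a
    have h1 : tens b * c ^ i * (tens b)⁻¹ = c ^ i := by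
      rw [(Commute.zpow_right (show Commute (tens b) c from h.ct b) i).eq, mul_inv_cancel_right]
    have h2 : hh * c ^ i * hh⁻¹ = c ^ (-i) := by
      rw [← conj_zpow, h.hhc, inv_zpow, zpow_neg]
    have h3 : hh * tens (b * a * b⁻¹) * hh⁻¹ = tens (b * a * b⁻¹) := by
      rw [← h.hht, mul_inv_cancel_right]
    calc (hh * tens b) * (c ^ i * tens a) * (hh * tens b)⁻¹
        = hh * (tens b * c ^ i * (tens b)⁻¹) * (tens b * tens a * (tens b)⁻¹) * hh⁻¹ := by group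
      _ = hh * c ^ i * tens (b * a * b⁻¹) * hh⁻¹ := by rw [h1, map_mul, map_mul, map_inv]
      _ = (hh * c ^ i * hh⁻¹) * (hh * tens (b * a * b⁻¹) * hh⁻¹) := by group
      _ = _ := by rw [h2, h3]
  have hcc : c⁻¹ ≠ c := by
    intro h1
    have h4 : c ^ 2 = 1 := by
      rw [pow_two]
      calc c * c = c * c⁻¹ := by rw [h1]
        _ = 1 := mul_inv_cancel c
    have h5 : orderOf c ∣ 2 := orderOf_dvd_of_pow_eq_one h4
    rcases (Nat.dvd_prime Nat.prime_two).1 h5 with h6 | h6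
    · exact hc1 (orderOf_eq_one_iff.1 h6)
    · rw [h6] at ho
      exact absurd ho (by decide)
  have hnA : ∀ b : M ≃ₗ[F] M, hh * tens b ∉ A := by
    intro b hb
    have h1 := hAc _ hb
    have h2 := hcj b 1 1
    rw [map_one, mul_one, mul_one, mul_inv_cancel, map_one, mul_one, zpow_one, zpow_neg, zpow_one, h1,
      mul_inv_cancel_right] at h2
    exact hcc h2.symm
  have hxx : hh * tens g₀ * (hh * tens g₀) = tens (g₀ * g₀) := by
    have h1 : hh * tens g₀ * (hh * tens g₀) = hh * (tens g₀ * hh) * tens g₀ := by group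
    rw [h1, h.hht, ← mul_assoc, h.hh2, one_mul, map_mul]
  have hxy : hh * tens g₀ * (hh * tens y₀) = tens (g₀ * y₀) := by
    have h1 : hh * tens g₀ * (hh * tens y₀) = hh * (tens g₀ * hh) * tens y₀ := by group
    rw [h1, h.hht, ← mul_assoc, h.hh2, one_mul, map_mul]
  have hyy2 : hh * tens y₀ * (hh * tens y₀) = 1 := by
    have h1 : hh * tens y₀ * (hh * tens y₀) = hh * (tens y₀ * hh) * tens y₀ := by group
    rw [h1, h.hht, ← mul_assoc, h.hh2, one_mul, ← map_mul, hy₀2, map_one]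
  obtain ⟨m, hm⟩ : ∃ m, Nat.card F + 1 = 2 * (2 * m) := ⟨(Nat.card F + 1) / 4, by omega⟩
  have hwt : hh * tens g₀ * (hh * tens y₀) * (hh * tens g₀ * (hh * tens y₀)) = z := by
    rw [hxy, ← map_mul, hgy, htz]
  obtain ⟨Y, hAY, hxY, hyY, hcov, hFY⟩ := exists_sd A hAA (x := hh * tens g₀) (y := hh * tens y₀) (m := m)
    (by
      rintro _ ⟨i, a, ha, haJ, rfl⟩
      rw [hcj]
      have h1 : g₀ * a * g₀⁻¹ = a := by rw [hpl.comm hJ hg₀J haJ, mul_inv_cancel_right]
      rw [h1]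
      exact ⟨-i, a, ha, haJ, rfl⟩)
    (by
      rintro _ ⟨i, a, ha, haJ, rfl⟩
      refine ⟨-i, a, ha, haJ, ?_⟩
      have h1 := hcj g₀ (-i) a
      have h2 : g₀ * a * g₀⁻¹ = a := by rw [hpl.comm hJ hg₀J haJ, mul_inv_cancel_right]
      rw [h2, neg_neg] at h1
      rw [← h1]
      group)
    (by
      rintro _ ⟨i, a, ha, haJ, rfl⟩
      rw [hcj, hinv a ha haJ, map_inv, zpow_neg]
      have h1 : Commute (c ^ i) (tens a) := ((show Commute (tens a) c from h.ct a).zpow_right i).symm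
      rw [mul_inv_rev, h1.inv_inv.eq])
    hyy2
    (by
      rw [hxx]
      refine htA _ ?_ ?_
      · intro x y
        show β (g₀ (g₀ x)) (g₀ (g₀ y)) = β x y
        rw [hg₀β, hg₀β, neg_neg]
      · rw [mul_assoc, hg₀J, ← mul_assoc, hg₀J, mul_assoc])
    (by
      rw [hwt, hxx, ← map_pow, ← pow_two, ← pow_mul, ← hm, hpl.pow_card hq hJ hg₀ hst₀, htz])
    (by rw [hwt, pow_two]; exact neg_sq)
    (hnA g₀) (hnA y₀)
    (by
      rw [hxy]
      intro h1
      have h2 := hAJ _ h1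
      rw [← map_mul, ← map_mul] at h2
      have h3 := hinj h2
      obtain ⟨v, hv⟩ := hpl.exists_ne
      have h4 : g₀ (y₀ (J (y₀ v))) = J (g₀ (y₀ (y₀ v))) := LinearEquiv.congr_fun h3 (y₀ v)
      have h5 : g₀ (J v) = J (g₀ v) := LinearEquiv.congr_fun hg₀J v
      rw [hy₀J, hyy, map_neg, h5] at h4
      have h6 : (2 : F) • J (g₀ v) = 0 := by rw [two_smul]; nth_rewrite 1 [← h4]; rw [neg_add_cancel]
      have h7 := (smul_eq_zero.1 h6).resolve_left hF.two
      rw [LinearEquiv.map_eq_zero_iff, LinearEquiv.map_eq_zero_iff] at h7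
      exact hv h7)
  have hxB : ∀ b : M ≃ₗ[F] M, (∀ x y, β (b x) (b y) = - β x y) → hh * tens b ∈ Isom B := by
    intro b hb x y
    show B (hh (tens b x)) (hh (tens b y)) = B x y
    rw [h.hhB, hk1, hmul b hb]
    ring
  refine ⟨Y, ?_, hAY hcA, ?_, ?_⟩
  · intro s hs
    have hx := hxB g₀ hg₀β
    have hy := hxB y₀ hy₀β
    have key : ∀ r ∈ Isom B, s * r⁻¹ ∈ A → s ∈ Isom B := by
      intro r hr h1
      have h2 := (Isom B).mul_mem (hAB h1) hr
      rwa [inv_mul_cancel_right] at h2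
    rcases hcov s hs with h1 | h1 | h1 | h1
    · exact hAB h1
    · exact key _ hx h1
    · exact key _ hy h1
    · exact key _ ((Isom B).mul_mem hx hy) h1
  · intro g hg
    obtain ⟨a, hconja, hab⟩ := hconj g hg
    -- the action on `J`
    have hJa : a * J = J * a ∨ a * J = LinearEquiv.neg F * J * a := by
      rcases hPJ g hg with h1 | h1
      · left
        rw [hconja] at h1
        have h2 := hinj h1
        rw [mul_inv_eq_iff_eq_mul] at h2
        exact h2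
      · right
        rw [hconja, ← htz, ← map_mul] at h1
        have h2 := hinj h1
        rw [mul_inv_eq_iff_eq_mul] at h2
        exact h2
    have hy₀c : ∀ b : M ≃ₗ[F] M, b * J = LinearEquiv.neg F * J * b → b * y₀⁻¹ * J = J * (b * y₀⁻¹) := by
      intro b hb
      rw [hy₀i]
      ext x
      show ((b (y₀ (J x)) : M) : V) = ((J (b (y₀ x)) : M) : V)
      congr 1
      rw [hy₀J, map_neg]
      have h1 : b (J (y₀ x)) = - J (b (y₀ x)) := LinearEquiv.congr_fun hb (y₀ x)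
      rw [h1, neg_neg]
    have hgi : g₀⁻¹ * J = J * g₀⁻¹ := (Commute.inv_left (show Commute g₀ J from hg₀J)).eq
    have hβi : ∀ {b : M ≃ₗ[F] M}, (∀ x y, β (b x) (b y) = - β x y) → ∀ x y, β (b⁻¹ x) (b⁻¹ y) = - β x y := by
      intro b hb x y
      have h1 := hb (b⁻¹ x) (b⁻¹ y)
      have h2 : ∀ x, b (b⁻¹ x) = x := fun x => LinearEquiv.apply_symm_apply b x
      rw [h2, h2] at h1
      rw [h1, neg_neg]
    have hβm : ∀ {b b' : M ≃ₗ[F] M}, (∀ x y, β (b x) (b y) = - β x y) → (∀ x y, β (b' x) (b' y) = - β x y) →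
        b * b' ∈ Isom β := by
      intro b b' hb hb' x y
      show β (b (b' x)) (b (b' y)) = β x y
      rw [hb, hb', neg_neg]
    rcases hab with ⟨ha, rfl⟩ | ⟨ha, rfl⟩
    · rcases hJa with h1 | h1
      · exact hAY (htA a ha h1)
      · -- `a = (a y₀⁻¹ g₀⁻¹) (g₀ y₀)`
        have h2 := hy₀c a h1
        have h3 : ∀ x y, β ((a * y₀⁻¹) x) ((a * y₀⁻¹) y) = - β x y := by
          intro x y
          show β (a (y₀⁻¹ x)) (a (y₀⁻¹ y)) = _
          rw [ha, hβi hy₀β]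
        have h4 : a * y₀⁻¹ * g₀⁻¹ ∈ Isom β := hβm h3 (hβi hg₀β)
        have h5 : a * y₀⁻¹ * g₀⁻¹ * J = J * (a * y₀⁻¹ * g₀⁻¹) := by
          rw [mul_assoc (a * y₀⁻¹), hgi, ← mul_assoc, h2, mul_assoc J]
        have h6 : tens a = tens (a * y₀⁻¹ * g₀⁻¹) * (hh * tens g₀ * (hh * tens y₀)) := by
          rw [hxy, ← map_mul]
          congr 1
          group
        rw [h6]
        exact Y.mul_mem (hAY (htA _ h4 h5)) (Y.mul_mem hxY hyY)
    · rcases hJa with h1 | h1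
      · have h4 : a * g₀⁻¹ ∈ Isom β := hβm ha (hβi hg₀β)
        have h5 : a * g₀⁻¹ * J = J * (a * g₀⁻¹) := by rw [mul_assoc, hgi, ← mul_assoc, h1, mul_assoc]
        have h6 : hh * tens a = tens (a * g₀⁻¹) * (hh * tens g₀) := by
          rw [← mul_assoc, h.hht, mul_assoc, ← map_mul, inv_mul_cancel_right]
        rw [h6]
        exact Y.mul_mem (hAY (htA _ h4 h5)) hxY
      · have h2 := hy₀c a h1
        have h4 : a * y₀⁻¹ ∈ Isom β := hβm ha (hβi hy₀β)
        have h6 : hh * tens a = tens (a * y₀⁻¹) * (hh * tens y₀) := by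
          rw [← mul_assoc, h.hht, mul_assoc, ← map_mul, inv_mul_cancel_right]
        rw [h6]
        exact Y.mul_mem (hAY (htA _ h4 h2)) hyY
  · have h1 : zel V (1 : F) = 1 := by
      unfold zel
      rw [if_pos rfl]
    rw [h1]
    exact hFY

end Cfsg.Agent.H47.Uni
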