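import Cfsg.Agent.H47.Uni.Plane

/-!
# S4970, UNI-2 (d): counting (helper47)
-/

set_option autoImplicit false

universe u

namespace Cfsg.Agent.H47.Uni

open Cfsg Cfsg.Agent.H955.FS Cfsg.Agent.H721.FR Cfsg.Agent.H855.FR Module

variable {F M : Type u} [Field F] [AddCommGroup M] [Module F M]

namespace Pl

variable {β : M →ₗ[F] M →ₗ[F] F}

/-- a complex structure with prescribed value -/
theorem exists_J [FiniteDimensional F M] (h : Pl β) {v w : M} (hvw : LinearIndependent F ![v, w]) :
    ∃ J : M ≃ₗ[F] M, J * J = LinearEquiv.neg F ∧ J v = w := by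
  obtain ⟨f, hf1, hf2⟩ := exists_lin h.dim hvw w (- v)
  have hff : f ∘ₗ f = - LinearMap.id := by
    apply ext_lin h.dim hvw
    · show f (f v) = - v
      rw [hf1, hf2]
    · show f (f w) = - w
      rw [hf2, map_neg, hf1]
  have hff' : ∀ x, f (f x) = - x := fun x => LinearMap.congr_fun hff x
  let J : M ≃ₗ[F] M := LinearEquiv.ofLinearMap f (- f)
    (by ext x; show f (- f x) = x; rw [map_neg, hff', neg_neg])
    (by ext x; show - f (f x) = x; rw [hff', neg_neg])
  refine ⟨J, ?_, hf1⟩
  ext x
  exact hff' x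

theorem card_J [Finite F] [FiniteDimensional F M] (h : Pl β) :
    Nat.card {J : M ≃ₗ[F] M // J * J = LinearEquiv.neg F} = Nat.card F * (Nat.card F - 1) := by
  classical
  have hfM : Finite M := Module.finite_of_finite F
  obtain ⟨v, hv⟩ := h.exists_ne
  have e : {J : M ≃ₗ[F] M // J * J = LinearEquiv.neg F} ≃ {w : M // w ∉ Submodule.span F {v}} := by
    refine Equiv.ofBijective (fun J => ⟨J.1 v, (li_iff hv).1 (h.li J.2 hv)⟩) ⟨?_, ?_⟩
    · intro J J' hJJ
      have h1 : J.1 v = J'.1 v := congrArg Subtype.val hJJ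
      apply Subtype.ext
      apply LinearEquiv.toLinearMap_injective
      apply ext_lin h.dim (h.li J.2 hv)
      · exact h1
      · show J.1 (J.1 v) = J'.1 (J.1 v)
        rw [JJ J.2, h1, JJ J'.2]
    · intro w
      obtain ⟨J, hJ, hJv⟩ := h.exists_J ((li_iff hv).2 w.2)
      exact ⟨⟨J, hJ⟩, Subtype.ext hJv⟩
  rw [Nat.card_congr e]
  have h1 : Nat.card {w : M // w ∈ Submodule.span F {v}} + Nat.card {w : M // w ∉ Submodule.span F {v}} = Nat.card M := by
    rw [← Nat.card_sum]
    exact Nat.card_congr (Equiv.sumCompl (fun w => w ∈ Submodule.span F {v}))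
  have h2 : Nat.card M = Nat.card F ^ 2 := by
    rw [Module.natCard_eq_pow_finrank (K := F), h.dim]
  have h3 : Nat.card {w : M // w ∈ Submodule.span F {v}} = Nat.card F := by
    have h4 : finrank F (Submodule.span F {v}) = 1 := finrank_span_singleton hv
    have h5 : Nat.card (Submodule.span F {v}) = Nat.card F ^ finrank F (Submodule.span F {v}) :=
      Module.natCard_eq_pow_finrank
    rw [h4, pow_one] at h5
    exact h5
  rw [h2, h3] at h1
  have h6 : Nat.card F ^ 2 = Nat.card F * (Nat.card F - 1) + Nat.card F := by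
    have h7 : 0 < Nat.card F := Nat.card_pos
    obtain ⟨n, hn⟩ := Nat.exists_eq_succ_of_ne_zero h7.ne'
    rw [hn, Nat.succ_sub_one, Nat.succ_eq_add_one]
    ring
  omega

/-- an element of norm `-1` -/
theorem pow_card [Finite F] [FiniteDimensional F M] (h : Pl β) (hq : Nat.card F % 4 = 3) {J : M ≃ₗ[F] M}
    (hJ : J * J = LinearEquiv.neg F) {g : M ≃ₗ[F] M} {s t : F} (hg : ∀ x, g x = s • x + t • J x)
    (hst : s * s + t * t = -1) : g ^ (Nat.card F + 1) = LinearEquiv.neg F := by
  have hfF := Fintype.ofFinite F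
  have : Nontrivial M := Module.nontrivial_of_finrank_pos (R := F) (by rw [h.dim]; norm_num)
  obtain ⟨n, hp, hcard⟩ := FiniteField.card F (ringChar F)
  rw [← Nat.card_eq_fintype_card] at hcard
  have : Fact (ringChar F).Prime := ⟨hp⟩
  have hchar : CharP (Module.End F M) (ringChar F) :=
    charP_of_injective_algebraMap (FaithfulSMul.algebraMap_injective F (Module.End F M)) (ringChar F)
  let JE : Module.End F M := (J : M →ₗ[F] M)
  have hJE : JE * JE = -1 := by
    ext x
    exact JJ hJ x
  let G : Module.End F M := algebraMap F (Module.End F M) s + algebraMap F (Module.End F M) t * JE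
  have hG : ∀ x, G x = g x := by
    intro x
    rw [hg]
    rfl
  have hc : Commute (algebraMap F (Module.End F M) s) (algebraMap F (Module.End F M) t * JE) :=
    Algebra.commutes s _
  have hc2 : Commute (algebraMap F (Module.End F M) t) JE := Algebra.commutes t _
  have hJ4 : JE ^ (Nat.card F) = - JE := by
    have h1 : Nat.card F = 4 * (Nat.card F / 4) + 3 := by omega
    have h2 : JE ^ 4 = 1 := by
      have : JE ^ 4 = (JE * JE) * (JE * JE) := by noncomm_ring
      rw [this, hJE]
      noncomm_ring
    rw [h1, pow_add, pow_mul, h2, one_pow, one_mul]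
    have : JE ^ 3 = (JE * JE) * JE := by noncomm_ring
    rw [this, hJE]
    noncomm_ring
  have hGq : G ^ (Nat.card F) = algebraMap F (Module.End F M) s - algebraMap F (Module.End F M) t * JE := by
    have h1 : G ^ (Nat.card F) = algebraMap F (Module.End F M) s ^ (Nat.card F) +
        (algebraMap F (Module.End F M) t * JE) ^ (Nat.card F) := by
      rw [hcard]
      exact add_pow_char_pow_of_commute _ _ hc
    rw [h1, hc2.mul_pow, hJ4, ← map_pow, ← map_pow, Nat.card_eq_fintype_card, FiniteField.pow_card,
      FiniteField.pow_card]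
    noncomm_ring
  have hG1 : G ^ (Nat.card F + 1) = -1 := by
    rw [pow_succ, hGq]
    ext x
    show (algebraMap F (Module.End F M) s - algebraMap F (Module.End F M) t * JE) (G x) = - x
    rw [hG, hg]
    show s • (s • x + t • J x) - t • J (s • x + t • J x) = - x
    rw [map_add, map_smul, map_smul, JJ hJ]
    have h1 : s • (s • x + t • J x) - t • (s • J x + t • -x) = (s * s + t * t) • x := by
      module
    rw [h1, hst, neg_one_smul]
  have hpow : ∀ (k : ℕ) (x : M), (g ^ k) x = (G ^ k) x := by
    intro k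
    induction k with
    | zero => intro x; rfl
    | succ k ih =>
      intro x
      rw [pow_succ, pow_succ]
      show (g ^ k) (g x) = (G ^ k) (G x)
      rw [ih, hG]
  ext x
  rw [hpow, hG1]
  rfl

/-- two squares -/
theorem exists_norm (F : Type u) [Field F] [Finite F] : ∃ s t : F, s * s + t * t = -1 := by
  have hfF := Fintype.ofFinite F
  obtain ⟨n, hp, hcard⟩ := FiniteField.card F (ringChar F)
  have : NeZero (ringChar F) := ⟨hp.ne_zero⟩
  obtain ⟨s, t, h⟩ := CharP.sq_add_sq F (ringChar F) (-1)
  refine ⟨(s : F), (t : F), ?_⟩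
  push_cast at h
  rw [← h]
  ring

end Pl

end Cfsg.Agent.H47.Uni
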