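import Cfsg.Agent.H47.Uni.Cov
import Cfsg.Agent.H47.Uni.Sd
import Mathlib

/-!
# S4970, UNI-2 (d): the symplectic plane over a field with `q = 3 mod 4` (helper47)
-/

set_option autoImplicit false

universe u

namespace Cfsg.Agent.H47.Uni

open Cfsg Cfsg.Agent.H955.FS Cfsg.Agent.H721.FR Cfsg.Agent.H855.FR Module

variable {F M : Type u} [Field F] [AddCommGroup M] [Module F M]

/-! ### bases of a plane -/

theorem li_iff {v w : M} (hv : v ≠ 0) : LinearIndependent F ![v, w] ↔ w ∉ Submodule.span F {v} := by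
  rw [LinearIndependent.pair_iff' hv]
  constructor
  · intro h hw
    obtain ⟨a, ha⟩ := Submodule.mem_span_singleton.1 hw
    exact h a ha
  · intro h a ha
    exact h (Submodule.mem_span_singleton.2 ⟨a, ha⟩)

theorem exists_coords [FiniteDimensional F M] (h2 : finrank F M = 2) {v w : M} (h : LinearIndependent F ![v, w]) (x : M) :
    ∃ s t : F, x = s • v + t • w := by
  have h1 : Submodule.span F (Set.range ![v, w]) = ⊤ := by
    apply h.span_eq_top_of_card_eq_finrank'
    rw [h2]; simp
  have h3 : x ∈ Submodule.span F (Set.range ![v, w]) := by rw [h1]; exact Submodule.mem_top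
  rw [Matrix.range_cons, Matrix.range_cons, Matrix.range_empty, Set.union_empty, Set.singleton_union] at h3
  obtain ⟨s, t, hst⟩ := Submodule.mem_span_pair.1 h3
  exact ⟨s, t, hst.symm⟩

theorem ext_lin [FiniteDimensional F M] {W : Type u} [AddCommGroup W] [Module F W] (h2 : finrank F M = 2) {v w : M}
    (h : LinearIndependent F ![v, w]) {f g : M →ₗ[F] W} (hv : f v = g v) (hw : f w = g w) : f = g := by
  ext x
  obtain ⟨s, t, rfl⟩ := exists_coords h2 h x
  rw [map_add, map_add, map_smul, map_smul, map_smul, map_smul, hv, hw]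

theorem exists_lin [FiniteDimensional F M] (h2 : finrank F M = 2) {v w : M} (h : LinearIndependent F ![v, w]) (a b : M) :
    ∃ f : M →ₗ[F] M, f v = a ∧ f w = b := by
  let bs : Basis (Fin 2) F M := basisOfLinearIndependentOfCardEqFinrank h (by rw [h2]; simp)
  have hbs : ⇑bs = ![v, w] := coe_basisOfLinearIndependentOfCardEqFinrank h _
  refine ⟨bs.constr F ![a, b], ?_, ?_⟩
  · have h1 := bs.constr_basis F ![a, b] 0
    rw [hbs] at h1
    exact h1
  · have h1 := bs.constr_basis F ![a, b] 1
    rw [hbs] at h1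
    exact h1

/-- the two forms agree if they are alternating and agree on a basis -/
theorem eq_of_alt [FiniteDimensional F M] (h2 : finrank F M = 2) {v w : M} (h : LinearIndependent F ![v, w])
    {β γ : M →ₗ[F] M →ₗ[F] F} (hβ : ∀ x, β x x = 0) (hγ : ∀ x, γ x x = 0) (hvw : β v w = γ v w) (hwv : β w v = γ w v)
    (x y : M) : β x y = γ x y := by
  obtain ⟨s, t, rfl⟩ := exists_coords h2 h x
  obtain ⟨s', t', rfl⟩ := exists_coords h2 h y
  simp only [map_add, map_smul, LinearMap.add_apply, LinearMap.smul_apply, hβ, hγ, hvw, hwv, smul_zero, zero_add,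
    add_zero]

/-- a symplectic plane over a field in which `-1` is not a square -/
structure Pl (β : M →ₗ[F] M →ₗ[F] F) : Prop where
  two : (2 : F) ≠ 0
  ns : ¬ IsSquare (-1 : F)
  alt : ∀ x y, β x y = - β y x
  nd : ∀ x, (∀ y, β x y = 0) → x = 0
  dim : finrank F M = 2

namespace Pl

variable {β : M →ₗ[F] M →ₗ[F] F}

theorem self (h : Pl β) (x : M) : β x x = 0 := by
  have h1 := h.alt x x
  have h2 : (2 : F) * β x x = 0 := by linear_combination h1
  exact (mul_eq_zero.1 h2).resolve_left h.two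

theorem exists_ne (h : Pl β) : ∃ v : M, v ≠ 0 := by
  have : Nontrivial M := Module.nontrivial_of_finrank_pos (R := F) (by rw [h.dim]; norm_num)
  exact _root_.exists_ne 0

variable {J : M ≃ₗ[F] M}

theorem JJ (hJ : J * J = LinearEquiv.neg F) (x : M) : J (J x) = - x := by
  have := LinearEquiv.congr_fun hJ x
  simpa using this

theorem li (h : Pl β) (hJ : J * J = LinearEquiv.neg F) {v : M} (hv : v ≠ 0) : LinearIndependent F ![v, J v] := by
  rw [li_iff hv]
  intro h1
  obtain ⟨a, ha⟩ := Submodule.mem_span_singleton.1 h1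
  have h2 := JJ hJ v
  rw [← ha, map_smul, ← ha, smul_smul] at h2
  have h3 : (a * a + 1) • v = 0 := by rw [add_smul, one_smul, h2, neg_add_cancel]
  have h4 := (smul_eq_zero.1 h3).resolve_right hv
  exact h.ns ⟨a, by linear_combination -h4⟩

variable [FiniteDimensional F M]

theorem isom (h : Pl β) (hJ : J * J = LinearEquiv.neg F) (x y : M) : β (J x) (J y) = β x y := by
  obtain ⟨v, hv⟩ := h.exists_ne
  refine eq_of_alt h.dim (h.li hJ hv) (β := β.compl₁₂ (J : M →ₗ[F] M) (J : M →ₗ[F] M)) (γ := β) ?_ h.self ?_ ?_ x y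
  · intro x
    exact h.self _
  · show β (J v) (J (J v)) = β v (J v)
    rw [JJ hJ, map_neg, h.alt v]
  · show β (J (J v)) (J v) = β (J v) v
    rw [JJ hJ, map_neg, LinearMap.neg_apply, h.alt (J v)]

theorem skew (h : Pl β) (hJ : J * J = LinearEquiv.neg F) (x y : M) : β (J x) y = - β x (J y) := by
  have h1 := h.isom hJ x (J y)
  rw [JJ hJ, map_neg] at h1
  rw [← h1, neg_neg]

theorem ne (h : Pl β) (hJ : J * J = LinearEquiv.neg F) {v : M} (hv : v ≠ 0) : β v (J v) ≠ 0 := by
  intro h1
  apply hv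
  apply h.nd
  intro y
  obtain ⟨s, t, rfl⟩ := exists_coords h.dim (h.li hJ hv) y
  rw [map_add, map_smul, map_smul, h.self, h1, smul_zero, smul_zero, add_zero]

/-- `s + t J` multiplies the form by `s² + t²` -/
theorem mul (h : Pl β) (hJ : J * J = LinearEquiv.neg F) (s t : F) (x y : M) :
    β (s • x + t • J x) (s • y + t • J y) = (s * s + t * t) * β x y := by
  simp only [map_add, map_smul, LinearMap.add_apply, LinearMap.smul_apply, h.isom hJ, h.skew hJ, smul_eq_mul]
  ring

/-- the centraliser of `J` -/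
theorem form (h : Pl β) (hJ : J * J = LinearEquiv.neg F) {g : M ≃ₗ[F] M} (hg : g * J = J * g) :
    ∃ s t : F, ∀ x, g x = s • x + t • J x := by
  obtain ⟨v, hv⟩ := h.exists_ne
  obtain ⟨s, t, hst⟩ := exists_coords h.dim (h.li hJ hv) (g v)
  refine ⟨s, t, fun x => ?_⟩
  have h1 : (g : M →ₗ[F] M) = s • LinearMap.id + t • (J : M →ₗ[F] M) := by
    apply ext_lin h.dim (h.li hJ hv)
    · show g v = s • v + t • J v
      exact hst
    · show g (J v) = s • J v + t • J (J v)
      have h2 : g (J v) = J (g v) := LinearEquiv.congr_fun hg v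
      rw [h2, hst, map_add, map_smul, map_smul]
  exact LinearMap.congr_fun h1 x

/-- multiplier of an element `s + t J` -/
theorem form' (h : Pl β) (hJ : J * J = LinearEquiv.neg F) {g : M ≃ₗ[F] M} (hg : g * J = J * g) {δ : F}
    (hδ : ∀ x y, β (g x) (g y) = δ * β x y) : ∃ s t : F, (∀ x, g x = s • x + t • J x) ∧ s * s + t * t = δ := by
  obtain ⟨s, t, hst⟩ := h.form hJ hg
  refine ⟨s, t, hst, ?_⟩
  obtain ⟨v, hv⟩ := h.exists_ne
  have h1 := hδ v (J v)
  rw [hst, hst, h.mul hJ] at h1
  exact mul_right_cancel₀ (h.ne hJ hv) h1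

theorem comm (h : Pl β) (hJ : J * J = LinearEquiv.neg F) {g g' : M ≃ₗ[F] M} (hg : g * J = J * g)
    (hg' : g' * J = J * g') : g * g' = g' * g := by
  obtain ⟨s, t, hst⟩ := h.form hJ hg
  ext x
  show g (g' x) = g' (g x)
  have h1 : g' (J x) = J (g' x) := LinearEquiv.congr_fun hg' x
  rw [hst, hst, map_add, map_smul, map_smul, h1]

/-- an element of norm `s² + t²` -/
theorem exists_elt (hJ : J * J = LinearEquiv.neg F) {s t : F} (hst : s * s + t * t ≠ 0) :
    ∃ g : M ≃ₗ[F] M, (∀ x, g x = s • x + t • J x) ∧ g * J = J * g := by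
  set n := s * s + t * t with hn
  have key : ∀ (s t : F), s * s + t * t = n → ∀ x : M,
      n⁻¹ • (s • (s • x + t • J x) - t • J (s • x + t • J x)) = x := by
    intro s t hst' x
    rw [map_add, map_smul, map_smul, JJ hJ]
    have h1 : s • (s • x + t • J x) - t • (s • J x + t • -x) = (s * s + t * t) • x := by
      module
    rw [h1, hst', smul_smul, inv_mul_cancel₀ hst, one_smul]
  let g : M ≃ₗ[F] M := LinearEquiv.ofLinear (s • LinearMap.id + t • (J : M →ₗ[F] M))
    (n⁻¹ • (s • LinearMap.id - t • (J : M →ₗ[F] M)))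
    (by
      ext x
      show s • (n⁻¹ • (s • x - t • J x)) + t • J (n⁻¹ • (s • x - t • J x)) = x
      have h1 := key s (-t) (by rw [hn]; ring) x
      have h2 : s • (n⁻¹ • (s • x - t • J x)) + t • J (n⁻¹ • (s • x - t • J x)) =
          n⁻¹ • (s • (s • x + (-t) • J x) - (-t) • J (s • x + (-t) • J x)) := by
        rw [map_smul, map_sub, map_smul, map_smul, map_add, map_smul, map_smul]
        module
      rw [h2, h1])
    (by
      ext x
      exact key s t rfl x)
  refine ⟨g, fun x => rfl, ?_⟩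
  ext x
  show s • J x + t • J (J x) = J (s • x + t • J x)
  rw [map_add, map_smul, map_smul]

/-- an involution which anticommutes with `J` -/
theorem exists_anti (h : Pl β) (hJ : J * J = LinearEquiv.neg F) :
    ∃ y : M ≃ₗ[F] M, y * y = 1 ∧ (∀ x, y (J x) = - J (y x)) ∧ ∀ a b, β (y a) (y b) = - β a b := by
  obtain ⟨v, hv⟩ := h.exists_ne
  obtain ⟨f, hf1, hf2⟩ := exists_lin h.dim (h.li hJ hv) v (- J v)
  have hff : f ∘ₗ f = LinearMap.id := by
    apply ext_lin h.dim (h.li hJ hv)
    · show f (f v) = v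
      rw [hf1, hf1]
    · show f (f (J v)) = J v
      rw [hf2, map_neg, hf2, neg_neg]
  let y : M ≃ₗ[F] M := LinearEquiv.ofLinear f f hff hff
  have hy : ∀ x, y x = f x := fun x => rfl
  refine ⟨y, ?_, ?_, ?_⟩
  · ext x
    exact LinearMap.congr_fun hff x
  · have h1 : f ∘ₗ (J : M →ₗ[F] M) = - ((J : M →ₗ[F] M) ∘ₗ f) := by
      apply ext_lin h.dim (h.li hJ hv)
      · show f (J v) = - J (f v)
        rw [hf1, hf2]
      · show f (J (J v)) = - J (f (J v))
        rw [JJ hJ, map_neg, hf1, hf2, map_neg, JJ hJ, neg_neg]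
    intro x
    exact LinearMap.congr_fun h1 x
  · intro a b
    refine eq_of_alt h.dim (h.li hJ hv) (β := β.compl₁₂ f f) (γ := - β) ?_ ?_ ?_ ?_ a b
    · intro x
      exact h.self _
    · intro x
      show - β x x = 0
      rw [h.self, neg_zero]
    · show β (f v) (f (J v)) = - β v (J v)
      rw [hf1, hf2, map_neg]
    · show β (f (J v)) (f v) = - β (J v) v
      rw [hf1, hf2, map_neg, LinearMap.neg_apply]

end Pl

end Cfsg.Agent.H47.Uni
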